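import Cfsg.Agent.R2.H28.SL2.TK2

/-!
# Self-dual modules of `SL(2, q)` (helper6, S5931)

* `SD ρ P` : `P` is a symmetric nondegenerate invariant form; `Nd P X`, `Iso P X`;
* `SD.nd_of_count` (KEY), `SD.compl`, `SD.restrict`, `SD.nd_orth`;
* `SD.all_soc` (NDG) : if all irreducible submodules are nondegenerate, every factor is in the socle;
* `SD.kp` : the same for types; `SD.mf` : multiplicity-free modules.
-/

set_option autoImplicit false
set_option linter.unusedSectionVars false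

namespace Cfsg.Agent.R2.F4T

open Matrix Cfsg.Agent.H943.SL2Rel Cfsg.Agent.H943.SL2Mod Cfsg.Agent.H943.RepAdd Cfsg.Agent.R2.H28.SL2
open Cfsg.Agent.R2.SL2 (typ tyl coe_tyl typ_step typ_zero tyl_eq_nil mem_typ)

universe u v w

section gen

variable {k : Type u} [Field k] {G : Type w} [Group G] {V : Type v} [AddCommGroup V] [Module k V]

/-- a symmetric nondegenerate invariant form -/
structure SD (ρ : Representation k G V) (P : V →ₗ[k] V →ₗ[k] k) : Prop where
  dul : Dul ρ ρ P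
  symm : ∀ x y, P x y = P y x

/-- nondegenerate subspaces -/
def Nd (P : V →ₗ[k] V →ₗ[k] k) (X : Submodule k V) : Prop := X ⊓ orth P X = ⊥

/-- isotropic subspaces -/
def Iso (P : V →ₗ[k] V →ₗ[k] k) (X : Submodule k V) : Prop := ∀ x ∈ X, ∀ y ∈ X, P x y = 0

variable {ρ : Representation k G V} {P : V →ₗ[k] V →ₗ[k] k}

theorem Iso.le {X : Submodule k V} (h : Iso P X) : X ≤ orth P X := fun y hy x hx => h x hx y hy

theorem Nd.of {X : Submodule k V} (h : ∀ x ∈ X, (∀ y ∈ X, P y x = 0) → x = 0) : Nd P X := by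
  unfold Nd
  rw [eq_bot_iff]
  rintro x ⟨hx, hx'⟩
  exact (Submodule.mem_bot k).2 (h x hx hx')

theorem Nd.eq_zero {X : Submodule k V} (h : Nd P X) {x : V} (hx : x ∈ X) (hx' : ∀ y ∈ X, P y x = 0) : x = 0 := by
  have h1 : x ∈ X ⊓ orth P X := ⟨hx, hx'⟩
  rwa [h, Submodule.mem_bot] at h1

theorem SD.orth_inv (S : SD ρ P) {X : Submodule k V} (hX : ∀ g, ∀ x ∈ X, ρ g x ∈ X) :
    ∀ g, ∀ x ∈ orth P X, ρ g x ∈ orth P X := S.dul.orth_inv hX

/-- the dimension of the orthogonal space -/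
theorem SD.orth_flip (S : SD ρ P) (X : Submodule k V) : orth P.flip X = orth P X := by
  ext y
  rw [mem_orth, mem_orth]
  refine forall₂_congr fun x _ => ?_
  rw [LinearMap.flip_apply, S.symm]

variable [FiniteDimensional k V]

theorem SD.orth_orth (S : SD ρ P) (X : Submodule k V) : orth P (orth P X) = X := by
  ext x
  constructor
  · intro h
    exact S.dul.orth_orth X x fun y hy => by
      rw [S.symm]
      exact h y hy
  · intro h y hy
    rw [S.symm]
    exact hy x h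

theorem SD.finrank_orth (S : SD ρ P) {X : Submodule k V} (hX : ∀ g, ∀ x ∈ X, ρ g x ∈ X) :
    Module.finrank k X + Module.finrank k (orth P X) = Module.finrank k V := by
  obtain ⟨B', D', -⟩ := S.dul.sub hX
  have h1 := D'.finrank_eq
  have h2 := Submodule.finrank_quotient_add_finrank (orth P X)
  omega

theorem SD.compl (S : SD ρ P) {X : Submodule k V} (hX : ∀ g, ∀ x ∈ X, ρ g x ∈ X) (h : Nd P X) :
    IsCompl X (orth P X) := by
  rw [isCompl_iff, disjoint_iff, codisjoint_iff]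
  refine ⟨h, ?_⟩
  apply Submodule.eq_top_of_finrank_eq
  have h7 := Submodule.finrank_sup_add_finrank_inf_eq X (orth P X)
  rw [show X ⊓ orth P X = ⊥ from h, finrank_bot, add_zero] at h7
  rw [h7]
  exact S.finrank_orth hX

theorem SD.nd_orth (S : SD ρ P) {X : Submodule k V} (h : Nd P X) : Nd P (orth P X) := by
  unfold Nd
  rw [S.orth_orth, inf_comm]
  exact h

theorem SD.restrict (S : SD ρ P) {X : Submodule k V} (hX : ∀ g, ∀ x ∈ X, ρ g x ∈ X) (h : Nd P X) :
    SD (subRep ρ X hX) (P.compl₁₂ X.subtype X.subtype) := by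
  have hl : ∀ x : X, (∀ y : X, P x y = 0) → x = 0 := fun x hx => Subtype.ext (h.eq_zero x.2 fun y hy => by
    rw [S.symm]
    exact hx ⟨y, hy⟩)
  refine ⟨⟨fun g x y => S.dul.inv g x y, hl, fun y hy => hl y fun x => ?_⟩, fun x y => S.symm x y⟩
  rw [S.symm]
  exact hy x

/-- nondegenerate subspaces of a subspace -/
theorem nd_map {X : Submodule k V} {Y : Submodule k X} (h : Nd P (Y.map X.subtype)) :
    Nd (P.compl₁₂ X.subtype X.subtype) Y := by
  refine Nd.of fun x hx hx' => ?_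
  have h1 := h.eq_zero (x := (x : V)) ⟨x, hx, rfl⟩ (by
    rintro _ ⟨y, hy, rfl⟩
    exact hx' y hy)
  exact Subtype.ext h1

theorem nd_map' {X : Submodule k V} {Y : Submodule k X} (h : Nd (P.compl₁₂ X.subtype X.subtype) Y) :
    Nd P (Y.map X.subtype) := by
  refine Nd.of ?_
  rintro _ ⟨x, hx, rfl⟩ hx'
  have h1 := h.eq_zero (x := x) hx fun y hy => hx' _ ⟨y, hy, rfl⟩
  rw [h1]
  rfl

end gen

variable {k : Type u} [Field k] [DecidableEq k] {F : Type w} [Field F] [Fintype F] [DecidableEq F] {ι : F →+* k}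
variable {p : ℕ} [Fact p.Prime] [CharP k p] [CharP F p] [IsAlgClosed k] {a : ℕ}
variable {V : Type v} [AddCommGroup V] [Module k V] [FiniteDimensional k V]
  {ρ : Representation k (SpecialLinearGroup (Fin 2) F) V} {P : V →ₗ[k] V →ₗ[k] k}

/-- an irreducible submodule is nondegenerate or isotropic -/
theorem SD.nd_or_iso (S : SD ρ P) {X : Submodule k V} {hX : ∀ g, ∀ x ∈ X, ρ g x ∈ X} {b : ℕ}
    (hb : IsV ι p (subRep ρ X hX) b) : Nd P X ∨ Iso P X := by
  rcases IsV.inf_or_le ι p hb (S.orth_inv hX) with h | h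
  · exact Or.inl h
  · exact Or.inr fun x hx y hy => h hy x hx

/-- an isotropic factor occurs twice -/
theorem SD.two_le_count (S : SD ρ P) {X : Submodule k V} {hX : ∀ g, ∀ x ∈ X, ρ g x ∈ X} {b : ℕ}
    (hb : IsV ι p (subRep ρ X hX) b) (h : Iso P X) : 2 ≤ (cf (Sy.{u, v, w} ι p) ρ).count b := by
  obtain ⟨B₁, D₁, -⟩ := S.dul.sub hX
  have hK := S.orth_inv hX
  have h2 : IsV ι p (quotRep ρ (orth P X) hK) b := IsV.dual ι p hb D₁.flip.flip
  have h3 := cf_add (Sy.{u, v, w} ι p) ρ (orth P X) hK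
  have h4 : cf (Sy.{u, v, w} ι p) (quotRep ρ (orth P X) hK) = {b} := cf_irr _ h2
  have h5 := Multiset.one_le_count_iff_mem.2 (mem_cf_of_le ι p hb hK h.le)
  rw [h3, h4, Multiset.count_add, Multiset.count_singleton_self]
  omega

/-- **KEY** -/
theorem SD.nd_of_count (S : SD ρ P) {X : Submodule k V} {hX : ∀ g, ∀ x ∈ X, ρ g x ∈ X} {b : ℕ}
    (hb : IsV ι p (subRep ρ X hX) b) (h : (cf (Sy.{u, v, w} ι p) ρ).count b ≤ 1) : Nd P X := by
  rcases S.nd_or_iso hb with h1 | h1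
  · exact h1
  · have := S.two_le_count hb h1
    omega

/-- the factors -/
theorem SD.cf_eq (S : SD ρ P) {X : Submodule k V} (hX : ∀ g, ∀ x ∈ X, ρ g x ∈ X) (h : Nd P X) :
    cf (Sy.{u, v, w} ι p) ρ = cf (Sy.{u, v, w} ι p) (subRep ρ X hX) +
      cf (Sy.{u, v, w} ι p) (subRep ρ (orth P X) (S.orth_inv hX)) :=
  cf_sup hX (S.orth_inv hX) (S.compl hX h)

/-- **NDG** -/
theorem SD.all_soc (S : SD ρ P) (h : ∀ (X : Submodule k V) (hX : ∀ g, ∀ x ∈ X, ρ g x ∈ X) (b : ℕ),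
    IsV ι p (subRep ρ X hX) b → Nd P X) : ∀ b ∈ cf (Sy.{u, v, w} ι p) ρ, InSoc ι p ρ b :=
  ss_of_compl ι p _ V ρ le_rfl fun X hX b hb => ⟨orth P X, S.orth_inv hX, S.compl hX (h X hX b hb)⟩

variable {W : List (List ℕ)}

theorem count_tyl (hw : (W : Multiset (List ℕ)) = (cf (Sy.{u, v, w} ι p) ρ).map (tyl p)) (b : ℕ) :
    (cf (Sy.{u, v, w} ι p) ρ).count b ≤ (W : Multiset (List ℕ)).count (tyl p b) := by
  rw [hw]
  exact count_le_map _ _ _

theorem InSoc.typ_mem (hw : (W : Multiset (List ℕ)) = (cf (Sy.{u, v, w} ι p) ρ).map (tyl p)) {b : ℕ}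
    (h : InSoc ι p ρ b) : tyl p b ∈ W := cf_typ_mem ι p hw h.mem_cf

/-- **types**: if the possible types of the socle have multiplicity one, every factor is in the socle -/
theorem SD.kp' (S : SD ρ P) (hw : (W : Multiset (List ℕ)) = (cf (Sy.{u, v, w} ι p) ρ).map (tyl p)) (ok : List ℕ → Bool)
    (hs : ∀ c, InSoc ι p ρ c → ok (tyl p c) = true)
    (h1 : ∀ t ∈ W, ok t = true → (W : Multiset (List ℕ)).count t ≤ 1) :
    (∀ (X : Submodule k V) (hX : ∀ g, ∀ x ∈ X, ρ g x ∈ X) (b : ℕ), IsV ι p (subRep ρ X hX) b → Nd P X) ∧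
      ∀ t ∈ W, ok t = true := by
  have hnd : ∀ (X : Submodule k V) (hX : ∀ g, ∀ x ∈ X, ρ g x ∈ X) (b : ℕ), IsV ι p (subRep ρ X hX) b → Nd P X :=
    fun X hX b hb => S.nd_of_count hb (le_trans (count_tyl hw b)
      (h1 _ (InSoc.typ_mem hw ⟨X, hX, hb⟩) (hs b ⟨X, hX, hb⟩)))
  refine ⟨hnd, fun t ht => ?_⟩
  have h2 : t ∈ (W : Multiset (List ℕ)) := ht
  rw [hw] at h2
  obtain ⟨c, hc, rfl⟩ := Multiset.mem_map.1 h2
  exact hs c (S.all_soc hnd c hc)

/-- **kill by types** -/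
theorem SD.kp (S : SD ρ P) (hw : (W : Multiset (List ℕ)) = (cf (Sy.{u, v, w} ι p) ρ).map (tyl p)) (ok : List ℕ → Bool)
    (hs : ∀ c, InSoc ι p ρ c → ok (tyl p c) = true)
    (h1 : (∀ t ∈ W, ok t = true → (W : Multiset (List ℕ)).count t ≤ 1) ∧ ¬ ∀ t ∈ W, ok t = true) : False :=
  h1.2 (S.kp' hw ok hs h1.1).2

end Cfsg.Agent.R2.F4T
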