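import Cfsg.Agent.R2.F4M.Kc
import Cfsg.Agent.R2.H28.SL2.TK2
import Cfsg.Agent.R2.F4L.Act
import Cfsg.Agent.H952.F4.Tab

/-!
# S5931: the module `V = W0 k` (26-dimensional) and its composition types (helper6)

* `chF f φ : SL₂(K) →* F₄(k)`, `Rk f φ` : the 27-dimensional representation over `k ⊇ F`, `R0 f φ` : on `W0 k`;
* `act_Rk`; `dul_R0` : the self-duality (`p ≠ 3`);
* `typ_R0`, `typ_R0_three`, `typ_R0_two` : the composition types are in `listF4`, `listF4_3`, `listF4_2`.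
-/

set_option autoImplicit false
set_option linter.unusedSectionVars false

namespace Cfsg.Agent.R2.F4T

open Cfsg Cfsg.Lie Module Matrix
open Cfsg.Agent.ChevalleyStructure Cfsg.Agent.ChevalleyStructure.Elts
open Cfsg.Agent.ChevalleyStructure.E6Min.Tables Cfsg.Agent.ChevalleyStructure.E6Min.Basic
open Cfsg.Agent.H952.F4 Cfsg.Agent.H952.F4.Jord
open Cfsg.Agent.H952.F4.FixV (W0 mem_W0 finrank_W0 trL tfL)
open Cfsg.Agent.GpExc.Field (emb)
open Cfsg.Agent.R2.F4M (Jr rJ isJ_rJ Jr_tr Jr_tf Jr_sh Jr_cr Jr_u0 Jr_apply)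
open Cfsg.Agent.R2.H9.E6 (pq pq_surjective pq_eq_one)
open Cfsg.Agent.H943.RepAdd Cfsg.Agent.R2.H28.SL2
open Cfsg.Agent.R2.SL2 (ms tyl g4 g3 listF4 listF4_2 listF4_3)

universe u v

section Def

variable {F : Type u} [Field F] {k : Type u} [Field k] {K : Type v} [Field K] (f : F →+* k)
  (φ : ProjectiveSpecialLinearGroup (Fin 2) K →* ↥(chevF4.group F))

/-- the homomorphism `SL₂(K) → F₄(k)` -/
noncomputable def chF : SpecialLinearGroup (Fin 2) K →* ↥(chevF4.group k) := (emb hF4 f).comp (φ.comp pq)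

/-- the 27-dimensional representation -/
noncomputable def Rk : Representation k (SpecialLinearGroup (Fin 2) K) (I27 → k) := MonoidHom.comp (Jr k) (chF f φ)

theorem Rk_apply (s : SpecialLinearGroup (Fin 2) K) (x : I27 → k) :
    Rk f φ s x = Jr k (emb hF4 f (φ (pq s))) x := rfl

theorem Rk_tr (s : SpecialLinearGroup (Fin 2) K) (x : I27 → k) : tr1 (Rk f φ s x) = tr1 x := Jr_tr _ x

theorem Rk_tf (s : SpecialLinearGroup (Fin 2) K) (x y : I27 → k) : tf (Rk f φ s x) (Rk f φ s y) = tf x y := Jr_tf _ x y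

theorem Rk_sh (s : SpecialLinearGroup (Fin 2) K) (x : I27 → k) : sh (Rk f φ s x) = Rk f φ s (sh x) := Jr_sh _ x

theorem Rk_cr (s : SpecialLinearGroup (Fin 2) K) (x y : I27 → k) :
    cr (Rk f φ s x) (Rk f φ s y) = Rk f φ s (cr x y) := Jr_cr _ x y

theorem Rk_u0 (s : SpecialLinearGroup (Fin 2) K) : Rk f φ s (u0 k) = u0 k := Jr_u0 _

theorem act_Rk : R2.F4L.Act (Rk f φ) where
  sh := fun s x => (Rk_sh f φ s x).symm
  u0 := Rk_u0 f φ

theorem W0_inv : ∀ s, ∀ x ∈ W0 k, Rk f φ s x ∈ W0 k := by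
  intro s x hx
  rw [mem_W0] at hx ⊢
  rw [Rk_tr, hx]

/-- **the 26-dimensional representation** -/
noncomputable def R0 : Representation k (SpecialLinearGroup (Fin 2) K) ↥(W0 k) := subRep (Rk f φ) (W0 k) (W0_inv f φ)

theorem coe_R0 (s : SpecialLinearGroup (Fin 2) K) (x : ↥(W0 k)) : ((R0 f φ s x : ↥(W0 k)) : I27 → k) = Rk f φ s x := rfl

/-- the trace form on `W0` -/
noncomputable def T0 (k : Type u) [Field k] : ↥(W0 k) →ₗ[k] ↥(W0 k) →ₗ[k] k := (tfL k).compl₁₂ (W0 k).subtype (W0 k).subtype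

theorem T0_apply (x y : ↥(W0 k)) : T0 k x y = tf (x : I27 → k) (y : I27 → k) := rfl

theorem T0_symm (x y : ↥(W0 k)) : T0 k x y = T0 k y x := tf_comm _ _

theorem T0_left (h3 : (3 : k) ≠ 0) (x : ↥(W0 k)) (h : ∀ y, T0 k x y = 0) : x = 0 := by
  obtain ⟨v, hv⟩ := x
  refine Subtype.ext ?_
  refine tf_nondeg fun y => ?_
  rw [mem_W0] at hv
  have h1 : tr1 (y - (tr1 y / 3) • u0 k) = 0 := by
    rw [FixV.tr1_sub, tr1_smul, tr1_u0]
    field_simp
    ring
  have h2 : tf v (y - (tr1 y / 3) • u0 k) = 0 := h ⟨_, (mem_W0 _).2 h1⟩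
  rw [FixV.tf_sub_right, tf_smul_right, tf_comm v (u0 k), tf_u0, hv, mul_zero, sub_zero] at h2
  exact h2

/-- **self-duality** -/
theorem dul_R0 (h3 : (3 : k) ≠ 0) : Dul (R0 f φ) (R0 f φ) (T0 k) where
  inv := fun g x y => Rk_tf f φ g x y
  left := T0_left h3
  right := fun y h => T0_left h3 y fun x => by rw [T0_symm]; exact h x

end Def

section Ev

variable {F : Type u} [Field F] [Finite F] {k : Type u} [Field k] {K : Type v} [Field K] (f : F →+* k)
  {φ : ProjectiveSpecialLinearGroup (Fin 2) K →* ↥(chevF4.group F)} (p : ℕ) [Fact p.Prime] [CharP F p] [CharP k p]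

theorem finrank_eig_eq {G V : Type*} [Group G] [AddCommGroup V] [Module k V] (ρ : Representation k G V) (g : G) :
    finrank k (eig ρ g 1) = ev (ρ g) 1 := by
  unfold ev
  have h : eig ρ g 1 = Module.End.eigenspace (ρ g) 1 := by
    ext x
    rw [mem_eig, Module.End.mem_eigenspace_iff]
  rw [h]

variable (φ) in
theorem eig_R0 {g : SpecialLinearGroup (Fin 2) K} {n : ℕ} (hn : (n : k) ≠ 0) (hg : φ (pq g) ^ n = 1) :
    finrank k (eig (R0 f φ) g 1) + 1 = ev (JK (rJ F) (φ (pq g))) 1 := by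
  have h1 := Chg.ev_J f (isJ_rJ (F := F)) (isJ_rJ (F := k)) (φ (pq g)) 1
  rw [map_one] at h1
  rw [← h1, finrank_eig_eq]
  refine (FixEv.ev_ker (T := JK (rJ k) (emb hF4 f (φ (pq g)))) hn ?_ (trL k) FixV.trL_ne_zero
    (fun v => Jr_tr _ v) (W0_inv f φ g)).symm
  rw [← map_pow, ← map_pow, hg, map_one, map_one]

variable (hφ : Function.Injective φ)

theorem g4_sq : (g4 K) * (g4 K) = -1 := by
  apply Subtype.ext
  rw [Matrix.SpecialLinearGroup.coe_mul, Matrix.SpecialLinearGroup.coe_neg, Matrix.SpecialLinearGroup.coe_one]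
  ext i j
  fin_cases i <;> fin_cases j <;> simp [g4]

theorem g3_cube : (g3 K) ^ 3 = 1 := by
  apply Subtype.ext
  rw [Matrix.SpecialLinearGroup.coe_pow, Matrix.SpecialLinearGroup.coe_one]
  ext i j
  fin_cases i <;> fin_cases j <;> simp [g3, pow_succ, Matrix.mul_apply, Fin.sum_univ_two]

theorem g4_ne : pq (g4 K) ≠ 1 := by
  rw [Ne, pq_eq_one]
  rintro (h | h)
  · have h1 := congrArg (fun x : SpecialLinearGroup (Fin 2) K => (x : Matrix (Fin 2) (Fin 2) K) 1 0) h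
    simp [g4] at h1
  · have h1 := congrArg (fun x : SpecialLinearGroup (Fin 2) K => (x : Matrix (Fin 2) (Fin 2) K) 1 0) h
    simp [g4] at h1

theorem g3_ne : pq (g3 K) ≠ 1 := by
  rw [Ne, pq_eq_one]
  rintro (h | h)
  · have h1 := congrArg (fun x : SpecialLinearGroup (Fin 2) K => (x : Matrix (Fin 2) (Fin 2) K) 1 0) h
    simp [g3] at h1
  · have h1 := congrArg (fun x : SpecialLinearGroup (Fin 2) K => (x : Matrix (Fin 2) (Fin 2) K) 1 0) h
    simp [g3] at h1

include hφ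

theorem ev4 [DecidableEq k] (hp2 : p ≠ 2) : finrank k (eig (R0 f φ) (g4 K) 1) = 14 ∨ finrank k (eig (R0 f φ) (g4 K) 1) = 10 := by
  have h1 : φ (pq (g4 K)) * φ (pq (g4 K)) = 1 := by
    rw [← map_mul, ← map_mul, g4_sq, pq_eq_one.2 (Or.inr rfl), map_one]
  have h2 := eig_R0 f φ (g := g4 K) (n := 2) (by exact_mod_cast R2.SL2.two_ne hp2) (by rw [pow_two]; exact h1)
  have h3 : φ (pq (g4 K)) ≠ 1 := fun h => g4_ne (hφ (by rw [h, map_one]))
  rcases (Tor.tab_finite p (isJ_rJ (F := F))).two hp2 _ h3 h1 with h | h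
  · left
    have := h.1
    omega
  · right
    have := h.1
    omega

theorem ev3 [DecidableEq k] (hp3 : p ≠ 3) : finrank k (eig (R0 f φ) (g3 K) 1) = 14 ∨ finrank k (eig (R0 f φ) (g3 K) 1) = 8 := by
  have h1 : φ (pq (g3 K)) ^ 3 = 1 := by
    rw [← map_pow, ← map_pow, g3_cube, map_one, map_one]
  have h2 := eig_R0 f φ (g := g3 K) (n := 3) (by exact_mod_cast R2.SL2.three_ne hp3) h1
  have h3 : φ (pq (g3 K)) ≠ 1 := fun h => g3_ne (hφ (by rw [h, map_one]))
  rcases (Tor.tab_finite p (isJ_rJ (F := F))).three hp3 _ h3 h1 with h | h | h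
  · left
    have := h.1
    omega
  · right
    have := h.1
    omega
  · right
    have := h.1
    omega

end Ev

section Typ

variable {F : Type u} [Field F] [Finite F] {k : Type u} [Field k] [DecidableEq k] {K : Type v} [Field K] [Fintype K]
  [DecidableEq K] (f : F →+* k) (φ : ProjectiveSpecialLinearGroup (Fin 2) K →* ↥(chevF4.group F))
  (hφ : Function.Injective φ) (ι : K →+* k) (p : ℕ) [Fact p.Prime] [CharP F p] [CharP k p] [CharP K p] [IsAlgClosed k]
  {a : ℕ} (hK : Fintype.card K = p ^ a)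

theorem cf_eq_ms {q : ℕ} (s : Multiset ℕ) (hs : ∀ b ∈ s, b < p ^ q) : ms p q (fun b => s.count b) = s := by
  ext b
  rw [R2.SL2.count_ms]
  split_ifs with h
  · rfl
  · symm
    rw [Multiset.count_eq_zero]
    exact fun hb => h (hs b hb)

theorem R0_neg_one : R0 f φ (Cfsg.Agent.H943.SL2Rel.h (-1)) = 1 := by
  have h1 : pq (Cfsg.Agent.H943.SL2Rel.h (-1 : Kˣ)) = 1 := by
    rw [pq_eq_one]
    right
    apply Subtype.ext
    rw [Matrix.SpecialLinearGroup.coe_neg, Matrix.SpecialLinearGroup.coe_one]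
    ext i j
    fin_cases i <;> fin_cases j <;> simp [Cfsg.Agent.H943.SL2Rel.h]
  refine LinearMap.ext fun x => Subtype.ext ?_
  rw [coe_R0, Rk_apply, h1, map_one, map_one, map_one]
  rfl

include hφ hK

/-- **the types, `p ≥ 5`** -/
theorem typ_R0 (hp5 : 5 ≤ p) :
    ∃ w ∈ listF4, (w : Multiset (List ℕ)) = (cf (Sy.{u, u, v} ι p) (R0 f φ)).map (tyl p) := by
  have h1 := isMult_cf ι p hK (R0 f φ)
  have h2 := R2.SL2.isMult_patF4 h1 hp5 (R0_neg_one f φ) finrank_W0 (ev4 f p hφ (by omega)) (ev3 f p hφ (by omega))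
  rwa [cf_eq_ms p _ (cf_lt ι p hK (R0 f φ))] at h2

theorem typ_R0_three (hp3 : p = 3) :
    ∃ w ∈ listF4_3, (w : Multiset (List ℕ)) = (cf (Sy.{u, u, v} ι p) (R0 f φ)).map (tyl p) := by
  have h1 := isMult_cf ι p hK (R0 f φ)
  have h2 := R2.SL2.isMult_patF4_three h1 hp3 (R0_neg_one f φ) finrank_W0 (ev4 f p hφ (by omega))
  rwa [cf_eq_ms p _ (cf_lt ι p hK (R0 f φ))] at h2

theorem typ_R0_two (hp2 : p = 2) :
    ∃ w ∈ listF4_2, (w : Multiset (List ℕ)) = (cf (Sy.{u, u, v} ι p) (R0 f φ)).map (tyl p) := by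
  have h1 := isMult_cf ι p hK (R0 f φ)
  have h2 := R2.SL2.isMult_patF4_two h1 hp2 finrank_W0 (ev3 f p hφ (by omega))
  rwa [cf_eq_ms p _ (cf_lt ι p hK (R0 f φ))] at h2

end Typ

end Cfsg.Agent.R2.F4T
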